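import Mathlib

/-!
# The word `v₁ = x⁻² y⁻¹ x`, `v_{n+1} = [x v x⁻¹, y v y⁻¹]`: definitions

With `x = a`, `y = a c` we have `v₁ = (c a²)⁻¹`, and `v₂ = v₁` is the relation `Rel a c`.
-/

set_option autoImplicit false

namespace CL.VN

variable {G H : Type*} [Group G] [Group H]

/-- one step of the sequence. -/
def step (x y v : G) : G :=
  (x * v * x⁻¹) * (y * v * y⁻¹) * (x * v * x⁻¹)⁻¹ * (y * v * y⁻¹)⁻¹

/-- the sequence. -/
def sq (x y : G) (n : ℕ) : G :=
  @Nat.rec (fun _ => G) (x⁻¹ * x⁻¹ * y⁻¹ * x) (fun _ v => step x y v) n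

theorem sq_succ (x y : G) (n : ℕ) : sq x y (n + 1) = step x y (sq x y n) := rfl

theorem map_sq (f : G →* H) (x y : G) (n : ℕ) : f (sq x y n) = sq (f x) (f y) n := by
  induction n with
  | zero => simp [sq]
  | succ n ih => rw [sq_succ, sq_succ, ← ih]; simp [step]

/-- the law. -/
def Law (n : ℕ) (G : Type*) [Group G] : Prop := ∀ x y : G, sq x y n = 1

theorem Law.of_surj {n : ℕ} (h : Law n G) (f : G →* H) (hf : Function.Surjective f) : Law n H := by
  intro x y
  obtain ⟨x, rfl⟩ := hf x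
  obtain ⟨y, rfl⟩ := hf y
  rw [← map_sq, h, map_one]

theorem Law.of_inj {n : ℕ} (h : Law n H) (f : G →* H) (hf : Function.Injective f) : Law n G :=
  fun x y => hf (by rw [map_sq, h, map_one])

theorem sq_mem (x y : G) (n : ℕ) : sq x y n ∈ derivedSeries G n := by
  induction n with
  | zero => simp
  | succ n ih =>
    rw [sq_succ, derivedSeries_succ]
    have hn := derivedSeries_normal G n
    exact Subgroup.commutator_mem_commutator (hn.conj_mem _ ih x) (hn.conj_mem _ ih y)

/-- the relation `v₂ = v₁` for `x = a`, `y = a c`. -/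
def Rel (a c : G) : Prop := c * a * c⁻¹ * a * c = a * a * (c * c) * (a * a)

theorem Rel.sq_eq {a c : G} (h : Rel a c) (n : ℕ) : sq a (a * c) n = (c * (a * a))⁻¹ := by
  induction n with
  | zero => simp only [sq, Nat.rec_zero]; group
  | succ n ih =>
    rw [sq_succ, ih]
    have h' : a * a * (c * c) * (a * a) = c * a * c⁻¹ * a * c := h.symm
    calc step a (a * c) (c * (a * a))⁻¹
        = a⁻¹ * a⁻¹ * a⁻¹ * c⁻¹ * (a * a * (c * c) * (a * a)) * c⁻¹ * a⁻¹ := by
          simp only [step, mul_inv_rev, inv_inv, mul_assoc, inv_mul_cancel_left,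
            mul_inv_cancel_left]
      _ = (c * (a * a))⁻¹ := by rw [h']; group

theorem Rel.not_law {a c : G} (h : Rel a c) (f : G →* H) (h1 : f (c * (a * a)) ≠ 1) (n : ℕ) :
    ¬ Law n H := fun hl => h1 (by
  have := hl (f a) (f (a * c))
  rw [← map_sq, h.sq_eq, map_inv, inv_eq_one] at this
  exact this)

end CL.VN
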