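import Mathlib

/-!
# The trace condition for the Suzuki groups
-/

set_option autoImplicit false

namespace CL.VN

namespace SzE
open Polynomial Finset

variable {F : Type*} [Field F] [Fintype F] [CharP F 2] {k : ℕ}

/-- the trace -/
def T (k : ℕ) {R : Type*} [CommRing R] (w : R) : R := ∑ i ∈ range (2 * k + 1), w ^ 2 ^ i

theorem T_add {R : Type*} [CommRing R] [CharP R 2] (a b : R) : T k (a + b) = T k a + T k b := by
  simp only [T, add_pow_char_pow, sum_add_distrib]

theorem T_zero {R : Type*} [CommRing R] : T k (0 : R) = 0 :=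
  sum_eq_zero fun i _ => zero_pow (by positivity)

theorem T_one {R : Type*} [CommRing R] [CharP R 2] : T k (1 : R) = 1 := by
  simp [T, CharTwo.two_eq_zero]

theorem T_sum {ι : Type*} (s : Finset ι) (f : ι → F) : T k (∑ i ∈ s, f i) = ∑ i ∈ s, T k (f i) := by
  classical
  induction s using Finset.induction_on with
  | empty => simp [T_zero]
  | insert a s ha ih => rw [sum_insert ha, sum_insert ha, T_add, ih]

theorem T_pow (a : F) : T k a ^ 2 = T k (a ^ 2) := by
  rw [T, T, sum_pow_char]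
  exact sum_congr rfl fun i _ => by rw [← pow_mul, ← pow_mul, mul_comm]

variable (hF : Fintype.card F = 2 ^ (2 * k + 1))
include hF

omit [CharP F 2] in
theorem pw (a : F) : a ^ 2 ^ (2 * k + 1) = a := by rw [← hF, FiniteField.pow_card]

omit [CharP F 2] in
theorem T_sq (a : F) : T k (a ^ 2) = T k a := by
  have h1 := sum_range_succ (fun i => a ^ 2 ^ i) (2 * k + 1)
  rw [sum_range_succ' (fun i => a ^ 2 ^ i), pw hF, pow_zero, pow_one, add_left_inj] at h1
  rw [T, T, ← h1]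
  exact sum_congr rfl fun i _ => by rw [← pow_mul, ← pow_succ']

omit [CharP F 2] in
theorem T_fr (a : F) (j : ℕ) : T k (a ^ 2 ^ j) = T k a := by
  induction j with
  | zero => simp
  | succ j ih => rw [pow_succ, pow_mul, T_sq hF, ih]

theorem T_01 (a : F) : T k a = 0 ∨ T k a = 1 := by
  have h := (T_pow (k := k) a).trans (T_sq hF a)
  rcases mul_eq_zero.1 (show T k a * (T k a - 1) = 0 by linear_combination h) with h | h
  · exact .inl h
  · exact .inr (sub_eq_zero.1 h)

omit hF [Fintype F] [CharP F 2] in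
theorem P_monic : (T k (X : F[X])).Monic ∧ (T k (X : F[X])).natDegree = 2 ^ (2 * k) := by
  have h : (∑ i ∈ range (2 * k), (X : F[X]) ^ 2 ^ i).degree < (X ^ 2 ^ (2 * k) : F[X]).degree := by
    rw [degree_X_pow]
    refine (degree_sum_le _ _).trans_lt ((Finset.sup_lt_iff (WithBot.bot_lt_coe _)).2 fun i hi => ?_)
    rw [degree_X_pow]
    exact_mod_cast Nat.pow_lt_pow_right (by norm_num) (mem_range.1 hi)
  rw [T, sum_range_succ]
  refine ⟨(monic_X_pow _).add_of_right h, ?_⟩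
  rw [natDegree_add_eq_right_of_degree_lt h, natDegree_X_pow]

omit hF [Fintype F] [CharP F 2] in
theorem P_eval (x : F) : (T k (X : F[X])).eval x = T k x := by
  simp [T, eval_finsetSum]

theorem as (w : F) (h : T k w = 0) : ∃ y, y ^ 2 ^ (k + 1) + y = w := by
  classical
  let f : F →+ F := ⟨⟨fun y => y ^ 2 ^ (k + 1) + y, by simp⟩, fun a b => by
    simp only [add_pow_char_pow]; ring⟩
  have hk : Nat.card f.ker ≤ 2 := by
    have : (f.ker : Set F) ⊆ ({0, 1} : Set F) := fun y hy => by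
      have h1 : y ^ 2 ^ (k + 1) = y := CharTwo.add_eq_zero.1 hy
      have h2 : (y ^ 2 ^ (k + 1)) ^ 2 ^ (k + 1) = y ^ 2 := by
        rw [← pow_mul, ← pow_add, show k + 1 + (k + 1) = 2 * k + 1 + 1 by ring, pow_succ, pow_mul, pw hF]
      rw [h1, h1] at h2
      rcases mul_eq_zero.1 (show y * (y - 1) = 0 by linear_combination -h2) with h | h
      · exact .inl h
      · exact .inr (sub_eq_zero.1 h)
    exact (Set.ncard_le_ncard this).trans (Set.ncard_pair zero_ne_one).le
  have hc : Nat.card F = Nat.card f.range * Nat.card f.ker := by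
    rw [AddSubgroup.card_eq_card_quotient_mul_card_addSubgroup f.ker,
      Nat.card_congr (QuotientAddGroup.quotientKerEquivRange f).toEquiv]
  have hsub : (f.range : Set F) ⊆ ((T k (X : F[X])).roots.toFinset : Set F) := by
    rintro _ ⟨y, rfl⟩
    rw [mem_coe, Multiset.mem_toFinset, mem_roots P_monic.1.ne_zero, IsRoot, P_eval]
    change T k (y ^ 2 ^ (k + 1) + y) = 0
    rw [T_add, T_fr hF, CharTwo.add_self_eq_zero]
  have hle : ((T k (X : F[X])).roots.toFinset : Set F).ncard ≤ (f.range : Set F).ncard := by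
    rw [Set.ncard_coe_finset]
    refine (Multiset.toFinset_card_le _).trans ((card_roots' _).trans ?_)
    rw [P_monic.2]
    rw [Nat.card_eq_fintype_card, hF, pow_succ] at hc
    change _ ≤ Nat.card f.range
    by_contra hlt
    have := Nat.mul_lt_mul_of_lt_of_le (not_le.1 hlt) hk (by norm_num)
    omega
  have he := Set.eq_of_subset_of_ncard_le hsub hle
  have : w ∈ (f.range : Set F) := by
    rw [he, mem_coe, Multiset.mem_toFinset, mem_roots P_monic.1.ne_zero, IsRoot, P_eval]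
    exact h
  exact this

omit hF in
theorem dec {R : Type*} [CommRing R] [CharP R 2] (x : R) :
    T k x = x + k + (1 + x + x ^ 2 ^ k) ^ 2 * ∑ i ∈ range k, (1 + x + x ^ 2 ^ k) ^ (2 ^ (i + 1) - 2) := by
  have h : ∀ i ∈ range k, (1 + x + x ^ 2 ^ k) ^ 2 * (1 + x + x ^ 2 ^ k) ^ (2 ^ (i + 1) - 2) =
      1 + x ^ 2 ^ (i + 1) + x ^ 2 ^ (k + 1 + i) := fun i _ => by
    have : 2 ≤ 2 ^ (i + 1) := Nat.le_self_pow (by omega) 2
    rw [← pow_add, Nat.add_sub_cancel' this, add_pow_char_pow, add_pow_char_pow, one_pow, ← pow_mul, ← pow_add]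
    congr 3
    ring
  rw [mul_sum, sum_congr rfl h, sum_add_distrib, sum_add_distrib, T, show 2 * k + 1 = k + 1 + k by ring,
    sum_range_add, sum_range_succ', sum_const, card_range, nsmul_one, pow_zero, pow_one]
  linear_combination -(CharTwo.add_self_eq_zero (k : R))

omit hF [Fintype F] [CharP F 2] in
theorem W_monic (hk : 1 ≤ k) :
    (∑ i ∈ range k, (1 + X + X ^ 2 ^ k : F[X]) ^ (2 ^ (i + 1) - 2)).Monic ∧
    (∑ i ∈ range k, (1 + X + X ^ 2 ^ k : F[X]) ^ (2 ^ (i + 1) - 2)).natDegree = 2 ^ k * (2 ^ k - 2) := by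
  have h2 : 2 ≤ 2 ^ k := Nat.le_self_pow (by omega) 2
  have hd : (1 + X : F[X]).degree < (X ^ 2 ^ k : F[X]).degree := by
    rw [add_comm, ← C_1, degree_X_add_C, degree_X_pow]
    exact_mod_cast h2
  have hm : (1 + X + X ^ 2 ^ k : F[X]).Monic := (monic_X_pow _).add_of_right hd
  have hn : (1 + X + X ^ 2 ^ k : F[X]).natDegree = 2 ^ k := by
    rw [natDegree_add_eq_right_of_degree_lt hd, natDegree_X_pow]
  generalize (1 + X + X ^ 2 ^ k : F[X]) = e at hm hn
  obtain ⟨j, rfl⟩ : ∃ j, k = j + 1 := ⟨k - 1, by omega⟩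
  have h : (∑ i ∈ range j, e ^ (2 ^ (i + 1) - 2)).degree < (e ^ (2 ^ (j + 1) - 2)).degree := by
    rw [degree_eq_natDegree (hm.pow _).ne_zero]
    refine (degree_sum_le _ _).trans_lt ((Finset.sup_lt_iff (WithBot.bot_lt_coe _)).2 fun i hi => ?_)
    rw [degree_eq_natDegree (hm.pow _).ne_zero, hm.natDegree_pow, hm.natDegree_pow, hn]
    have a1 : 2 ^ (i + 1) < 2 ^ (j + 1) := Nat.pow_lt_pow_right (by norm_num) (by have := mem_range.1 hi; omega)
    have a2 : 2 ≤ 2 ^ (i + 1) := Nat.le_self_pow (by omega) 2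
    exact_mod_cast Nat.mul_lt_mul_of_pos_right (by omega) (by omega)
  rw [sum_range_succ]
  refine ⟨(hm.pow _).add_of_right h, ?_⟩
  rw [natDegree_add_eq_right_of_degree_lt h, hm.natDegree_pow, hn, mul_comm]

omit hF [Fintype F] in
theorem V_ex (hk : 1 ≤ k) : ∃ V : F[X], V.Monic ∧ V.natDegree = 2 ^ (k + 1) - 1 ∧
    ∀ x : F, x ^ (2 ^ (k + 1) - 1) * (1 + x) = V.eval x * (x + k) := by
  have h2 : 2 ≤ 2 ^ k := Nat.le_self_pow (by omega) 2
  rcases Nat.even_or_odd k with h | h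
  · have e : (k : F) = 0 := (CharP.cast_eq_zero_iff F 2 k).2 h.two_dvd
    refine ⟨X ^ (2 ^ (k + 1) - 2) * (X + C 1), (monic_X_pow _).mul (monic_X_add_C _), ?_, fun x => ?_⟩
    · rw [(monic_X_pow _).natDegree_mul (monic_X_add_C _), natDegree_X_pow, natDegree_X_add_C, pow_succ]
      omega
    · rw [e, show 2 ^ (k + 1) - 1 = 2 ^ (k + 1) - 2 + 1 by rw [pow_succ]; omega, pow_succ x]
      simp only [eval_mul, eval_pow, eval_X, eval_add, eval_C]
      ring
  · have e : (k : F) = 1 := by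
      obtain ⟨j, rfl⟩ := h
      simp [CharTwo.two_eq_zero]
    exact ⟨X ^ (2 ^ (k + 1) - 1), monic_X_pow _, natDegree_X_pow _, fun x => by simp [e, add_comm]⟩

omit [CharP F 2] hF in
theorem sum_eval {Q : F[X]} (hm : Q.Monic) (hd : Q.natDegree = Fintype.card F - 1) : ∑ x : F, Q.eval x = -1 := by
  classical
  simp only [eval_eq_sum_range, sum_range_succ, sum_add_distrib]
  rw [sum_comm, sum_eq_zero, zero_add, hm.coeff_natDegree, hd]
  · simp only [one_mul]
    have h1 : 1 < Fintype.card F := Fintype.one_lt_card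
    rw [← sum_erase (s := univ) (f := fun x : F => x ^ (Fintype.card F - 1)) (a := 0) (zero_pow (by omega)),
      sum_congr rfl fun x hx => FiniteField.pow_card_sub_one_eq_one x (ne_of_mem_erase hx), sum_const,
      card_erase_of_mem (mem_univ _), card_univ, nsmul_one, Nat.cast_sub h1.le, FiniteField.cast_card_eq_zero]
    simp
  · intro i hi
    rw [← mul_sum, FiniteField.sum_pow_lt_card_sub_one F i (hd ▸ mem_range.1 hi), mul_zero]

end SzE

/-- `q = 2 ^ (2k+1)`, `r = 2 ^ (k+1)`, `T w = ∑ i < 2k+1, w ^ 2 ^ i ∈ {0, 1}` (additive, `T 1 = 1`,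
`T (w ^ 2) = T w`, so `T (w ^ r) = T w`).  `E x = 1 + x ^ r + x ^ 2 = ε ^ 2`, `ε = 1 + x + x ^ 2 ^ k`;
`T (E x) = 1`, so `E x ≠ 0`.  Let `h x = x ^ (r-1) (1 + x) / E x`.
Polynomials over `F`: `P = ∑ i < 2k+1, X ^ 2 ^ i = X + k + ∑ i ∈ Icc 1 k, ε ^ 2 ^ i`, so `P = X + k + E W`,
`W = ∑ i ∈ Icc 1 k, ε ^ (2 ^ i - 2)` monic of degree `q/2 - r`.  `X ^ (r-1) (1 + X) = V (X + k)` with
`V = X ^ (r-1)` (`k` odd) or `X ^ (r-2) (1 + X)` (`k` even), monic of degree `r - 1`.  If `T x = 0` then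
`x + k = E x * W x`, so `h x = V x * W x`.  Hence `(1 + T x) * h x = ((1 + P) V W)(x)` for ALL `x`, a monic
polynomial of degree `q - 1`, whose sum over `F` is `-1 = 1` (`FiniteField.sum_pow_lt_card_sub_one`,
`FiniteField.pow_card_sub_one_eq_one`).  Apply `T`: some `x` has `T x = 0` and `T (h x) = 1`; `x ≠ 0`
(`h 0 = 0`), `x ≠ 1`.  Finally `T (h x + 1) = 0`, and every `w` with `T w = 0` is `y ^ r + y`: the additive
map `y ↦ y ^ r + y` has kernel `{0, 1}` (`y ^ r = y` gives `y ^ 2 = (y ^ r) ^ r = y`), so its image has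
`q/2` elements, all roots of `P` (degree `q/2`). -/
theorem exists_sz {F : Type*} [Field F] [Fintype F] [CharP F 2] {k : ℕ} (hk : 1 ≤ k)
    (hF : Fintype.card F = 2 ^ (2 * k + 1)) :
    ∃ x y : F, x ≠ 0 ∧ x ≠ 1 ∧ 1 + x ^ 2 ^ (k + 1) + x ^ 2 ≠ 0 ∧
      (y ^ 2 ^ (k + 1) + y + 1) * (x * (1 + x ^ 2 ^ (k + 1) + x ^ 2)) =
        x ^ 2 ^ (k + 1) * (1 + x) := by
  classical
  have hE : ∀ x : F, 1 + x ^ 2 ^ (k + 1) + x ^ 2 ≠ 0 := fun x h => by
    have := congrArg (SzE.T k) h
    rw [SzE.T_add, SzE.T_add, SzE.T_one, SzE.T_fr hF, SzE.T_sq hF, SzE.T_zero, add_assoc,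
      CharTwo.add_self_eq_zero, add_zero] at this
    exact one_ne_zero this
  have hε : ∀ x : F, (1 + x + x ^ 2 ^ k) ^ 2 = 1 + x ^ 2 ^ (k + 1) + x ^ 2 := fun x => by
    rw [CharTwo.add_sq, CharTwo.add_sq, ← pow_mul, ← pow_succ]; ring
  obtain ⟨V, v1, v2, v3⟩ := SzE.V_ex (F := F) hk
  obtain ⟨w1, w2⟩ := SzE.W_monic (F := F) hk
  obtain ⟨p1, p2⟩ := SzE.P_monic (F := F) (k := k)
  have h2 : 2 ≤ 2 ^ k := Nat.le_self_pow (by omega) 2
  have hd : (1 : Polynomial F).degree < (SzE.T k (Polynomial.X : Polynomial F)).degree := by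
    rw [Polynomial.degree_one, Polynomial.degree_eq_natDegree p1.ne_zero, p2]
    exact_mod_cast Nat.two_pow_pos _
  have q1 := p1.add_of_right hd
  have hs := SzE.sum_eval ((q1.mul v1).mul w1) (by
    rw [(q1.mul v1).natDegree_mul w1, q1.natDegree_mul v1, Polynomial.natDegree_add_eq_right_of_degree_lt hd,
      p2, v2, w2, hF, pow_succ, pow_succ, two_mul k, pow_add]
    obtain ⟨n, hn⟩ : ∃ n, 2 ^ k = n + 2 := ⟨2 ^ k - 2, by omega⟩
    rw [hn, Nat.add_sub_cancel]
    have : (n + 2) * (n + 2) * 2 = (n + 2) * (n + 2) + (n + 2) * 2 + (n + 2) * n := by ring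
    omega)
  let h : F → F := fun x => x ^ (2 ^ (k + 1) - 1) * (1 + x) / (1 + x ^ 2 ^ (k + 1) + x ^ 2)
  obtain ⟨x, hx⟩ : ∃ x : F, SzE.T k ((1 + SzE.T k x) * h x) ≠ 0 := by
    by_contra! hc
    have e : ∑ x : F, (1 + SzE.T k x) * h x = 1 := by
      refine Eq.trans (Finset.sum_congr rfl fun x _ => ?_) (hs.trans (CharTwo.neg_eq 1))
      simp only [Polynomial.eval_mul, Polynomial.eval_add, Polynomial.eval_one, SzE.P_eval,
        Polynomial.eval_finsetSum, Polynomial.eval_pow, Polynomial.eval_X]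
      rcases SzE.T_01 hF x with a | a
      · have b := SzE.dec (k := k) x
        rw [a, hε, eq_comm, CharTwo.add_eq_zero] at b
        rw [mul_assoc]
        congr 1
        rw [div_eq_iff (hE x), v3, b]
        ring
      · rw [a, CharTwo.add_self_eq_zero, zero_mul, zero_mul, zero_mul]
    have := congrArg (SzE.T k) e
    rw [SzE.T_sum, SzE.T_one, Finset.sum_eq_zero fun x _ => hc x] at this
    exact zero_ne_one this
  have a : SzE.T k x = 0 := (SzE.T_01 hF x).resolve_right fun a => hx (by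
    rw [a, CharTwo.add_self_eq_zero, zero_mul, SzE.T_zero])
  rw [a, add_zero, one_mul] at hx
  have r1 : 2 ^ (k + 1) - 1 ≠ 0 := by rw [pow_succ]; omega
  obtain ⟨y, hy⟩ := SzE.as hF (h x + 1) (by
    rw [SzE.T_add, (SzE.T_01 hF _).resolve_left hx, SzE.T_one, CharTwo.add_self_eq_zero])
  refine ⟨x, y, ?_, ?_, hE x, ?_⟩
  · rintro rfl
    exact hx (by simp [h, zero_pow r1, SzE.T_zero])
  · rintro rfl
    rw [SzE.T_one] at a
    exact one_ne_zero a
  · rw [hy, add_assoc, CharTwo.add_self_eq_zero, add_zero, mul_comm x, ← mul_assoc, div_mul_cancel₀ _ (hE x),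
      mul_right_comm, ← pow_succ, Nat.sub_add_cancel (Nat.two_pow_pos _)]

end CL.VN
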