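import Mathlib

/-!
# The relation `Rel` in the Suzuki groups: the surface relations
-/

set_option autoImplicit false

namespace CL.VN.SzQ1

variable {F : Type*} [Field F] [CharP F 2]

theorem rels {v w e E G D a A z S : F} (hv : v ≠ 0) (hw : w ≠ 0) (he : e ≠ 0) (hE : E ≠ 0) (hG : G ≠ 0)
    (hD : D ≠ 0) (e1 : e = 1 + v + w) (e2 : E = 1 + w + v ^ 2) (e3 : G = w * e + v * E)
    (e4 : D = v ^ 2 * E + w * e ^ 2) (ha : a = w ^ 2 * e ^ 2 / (v * D)) (hA : A = (v ^ 2) ^ 2 * E ^ 2 / (w * G ^ 2))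
    (hS : S = w * e ^ 2 / (v ^ 2 * E)) (hz : z = v ^ 2 * E ^ 2 / (w ^ 2 * e ^ 2)) :
    a^2*z^2*S^2 + a^2*z^2 + A*z^2*S^3 + A*z*S^3 + A*z*S^2 + A*S^2 + z^2*S^2 + z*S^2 + 1 = 0 ∧
    a^2*A*S^2 + a^2*A + A^2*z*S^3 + A^2*z*S^2 + A^2*S^3 + A^2*S^2 + A*z^2*S^4 + A*z^2*S^3 + A*z*S^4 + A*z*S^3 + A*z*S + A*S + A + z^2*S^3 + z^2*S^2 + z*S^2 = 0 ∧
    a^2*A*z*S^2 + a^2*A*z + A^2*z*S^3 + A^2*z*S^2 + A^2*S^3 + A^2*S^2 + A*z^2*S^3 + A*z*S^3 + A*z*S + A*S + A + z^2*S^2 = 0 ∧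
    A^2*z^2*S^2 + A^2*S^2 + A*z^3*S^3 + A*z^2*S^3 + A*z^2*S^2 + A*z^2*S + A*z*S^2 + A*z*S + A*z + A + z^3*S^2 = 0 := by
  subst ha hA hS hz
  refine ⟨?_, ?_, ?_, ?_⟩
  all_goals
    field_simp
    clear hv hw he hE hG hD
    subst e4 e3 e2 e1
    grind

theorem lift {v w e E G D a A z S : F} (hv : v ≠ 0) (hw : w ≠ 0) (he : e ≠ 0) (hE : E ≠ 0) (hG : G ≠ 0)
    (hD : D ≠ 0) (e1 : e = 1 + v + w) (e2 : E = 1 + w + v ^ 2) (e3 : G = w * e + v * E)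
    (e4 : D = v ^ 2 * E + w * e ^ 2) (ha : a = w ^ 2 * e ^ 2 / (v * D)) (hA : A = (v ^ 2) ^ 2 * E ^ 2 / (w * G ^ 2))
    (hS : S = w * e ^ 2 / (v ^ 2 * E)) (hz : z = v ^ 2 * E ^ 2 / (w ^ 2 * e ^ 2)) :
    (v ^ 2 * (1 + w) / (w * e ^ 2) +
      (w ^ 2 + w ^ 3 + v * w + v ^ 2 * w ^ 2 + v ^ 3 + v ^ 3 * w + v ^ 4) / (v ^ 2 * w * e) +
      ((v ^ 2) ^ 2 + (v ^ 2) ^ 3 + w * v ^ 2 + w ^ 2 * (v ^ 2) ^ 2 + w ^ 3 + w ^ 3 * v ^ 2 + w ^ 4) /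
        (w ^ 2 * v ^ 2 * E)) ^ 2 * (a ^ 2 * A) = 1 + z * S + A := by
  subst ha hA hS hz
  field_simp
  clear hv hw he hE hG hD
  subst e4 e3 e2 e1
  grind

end CL.VN.SzQ1
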